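import Cfsg.Agent.Lib.CIT.Eppo
import Cfsg.Agent.Lib.GD.Main
import Cfsg.Agent.Lib.SEB.Main
import Cfsg.Agent.Lib.J1.Ord3
import Cfsg.Agent.Lib.H5Small
import Cfsg.Agent.Lib.Wal.Main
import Cfsg.Agent.Lib.Hom.SD
import Cfsg.Agent.Lib.H8AbTI
import Cfsg.Agent.Lib.E6.Defs

/-! Simple groups all of whose element orders are at most six: the final identifications. -/

set_option autoImplicit false

namespace CfsgLib.E6.Id

open Subgroup Cfsg Matrix MatrixGroups H5 BSW

universe u

variable {G : Type u} [Group G] [Finite G] (h : ∀ g : G, orderOf g ≤ 6)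
include h

theorem prime_cases {r : ℕ} (hr : r.Prime) (hd : r ∣ Nat.card G) : r = 2 ∨ r = 3 ∨ r = 5 := by
  have := Fact.mk hr
  obtain ⟨g, hg⟩ := exists_prime_orderOf_dvd_card' r hd
  have h1 := hg ▸ h g
  have := hr.two_le
  interval_cases r <;> simp_all +decide

theorem not_prime_dvd {r : ℕ} (hr : r.Prime) (h7 : 7 ≤ r) : ¬ r ∣ Nat.card G := fun hd => by
  have := prime_cases h hr hd
  omega

theorem le_three {m : ℕ} (hm : m ∣ Nat.card G) (h2 : ¬ 2 ∣ m) (h5 : ¬ 5 ∣ m) (h9 : ¬ 9 ∣ m) :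
    m ≤ 3 := by
  have h0 : m ≠ 0 := by rintro rfl; simp at h2
  have := Nat.eq_prime_pow_of_unique_prime_dvd (p := 3) h0 fun {r} hr hd => by
    rcases prime_cases h hr (hd.trans hm) with rfl | rfl | rfl
    exacts [absurd hd h2, rfl, absurd hd h5]
  generalize m.primeFactorsList.length = k at this
  rcases k with _ | _ | k
  · omega
  · omega
  · exact absurd ⟨3 ^ k, by rw [this]; ring⟩ h9

theorem five_dvd (hs : ¬ Group.IsSolvable G) : 5 ∣ Nat.card G := by_contra fun h5 =>
  hs (isSolvable_of_two_primes Nat.prime_two Nat.prime_three fun r hr hd => by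
    rcases prime_cases h hr hd with e | e | e
    exacts [Or.inl e, Or.inr e, absurd (e ▸ hd) h5])

theorem not_sz {m : ℕ} (hm : 1 ≤ m) {D : Subgroup G} (hD : Nat.card D + 1 = 2 ^ (2 * m + 1)) :
    False := by
  have h1 : 2 ^ 3 ≤ 2 ^ (2 * m + 1) := Nat.pow_le_pow_right two_pos (by omega)
  have h2 : 4 ^ m % 15 = 1 ∨ 4 ^ m % 15 = 4 := by
    clear hm hD h1
    induction m with
    | zero => simp
    | succ m ih => rw [pow_succ]; omega
  rw [pow_succ 2 (2 * m), pow_mul, show 2 ^ 2 = 4 from rfl] at hD h1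
  have := le_three h D.card_subgroup_dvd_card (by omega) (by omega) (by omega)
  omega

variable [hS : IsSimpleGroup G] (hna : ¬ IsMulCommutative G)
include hna

omit h [Finite G] in
theorem not_solv : ¬ Group.IsSolvable G := fun e =>
  hna ⟨⟨IsSimpleGroup.comm_iff_isSolvable.2 e⟩⟩

theorem psl {F : Type*} [Field F] [Finite F] (e : G ≃* ProjectiveSpecialLinearGroup (Fin 2) F) :
    Nonempty (G ≃* alternatingGroup (Fin 5)) ∨ Nonempty (G ≃* alternatingGroup (Fin 6)) := by
  have := Fintype.ofFinite F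
  let δ : Fˣ →* SL(2, F) :=
    { toFun := fun a => ⟨!![(a : F), 0; 0, ((a⁻¹ : Fˣ) : F)], by simp [det_fin_two]⟩
      map_one' := by ext i j; fin_cases i <;> fin_cases j <;> simp
      map_mul' := fun a b => Subtype.ext (by
        change _ = !![_, _; _, _] * !![_, _; _, _]
        simp [mul_comm]) }
  obtain ⟨a, ha⟩ := IsCyclic.exists_ofOrder_eq_natCard (α := Fˣ)
  have h1 : orderOf a ∣ orderOf (e.symm (piP F (δ a))) * 2 := by
    have h1 := pow_orderOf_eq_one (piP F (δ a))
    rw [← map_pow, piP_eq_one] at h1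
    have h2 := SL2_sq_eq_one_of_mem_center h1
    rw [← pow_mul, ← map_pow] at h2
    rw [MulEquiv.orderOf_eq, orderOf_dvd_iff_pow_eq_one]
    exact Units.ext (congrFun₂ (congrArg Subtype.val h2) 0 0)
  have h2 := Nat.le_of_dvd (mul_pos (orderOf_pos _) two_pos) h1
  have h3 := h (e.symm (piP F (δ a)))
  rw [ha, Nat.card_units] at h2
  have h4 := Nat.card_congr e.toEquiv
  have h5 := five_dvd h (not_solv hna)
  have h6 := h4 ▸ Cit.card_psl_dvd (F := F)
  have h7 := h5.trans h6
  have h8 : 1 < Nat.card F := Finite.one_lt_card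
  have h9 : Nat.card F ≤ 13 := by omega
  by_cases c2 : (2 : F) = 0
  · have : CharP F 2 := CharTwo.of_one_ne_zero_of_two_eq_zero one_ne_zero c2
    obtain ⟨n, -, hn⟩ := FiniteField.card F 2
    rw [← Nat.card_eq_fintype_card] at hn
    have h10 : (n : ℕ) < 4 := (Nat.pow_lt_pow_iff_right one_lt_two).1 (by omega)
    rw [hn] at h6 h7
    generalize (n : ℕ) = k at *
    refine Or.inl (J1.alt5_of_card (H4.card_eq_sixty ?_ (not_solv hna)) (not_solv hna))
    interval_cases k <;> first | exact h6 | omega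
  have h10 := FiniteField.odd_card_of_char_ne_two (F := F) fun e => c2 (by
    have := ringChar.Nat.cast_ringChar (R := F)
    rwa [e] at this)
  rw [← Nat.card_eq_fintype_card] at h10
  have h11 := h4.trans (SL2C.card_PSL2 c2)
  have h12 := not_prime_dvd h (r := 11) (by norm_num) (by norm_num)
  obtain ⟨H, hH⟩ := H4.exists_card_sixty c2 (h4 ▸ h5)
  have h13 : Nat.card (H.map e.symm.toMonoidHom) = 60 :=
    (card_map_of_injective e.symm.injective).trans hH
  have h14 := (H.map e.symm.toMonoidHom).card_mul_index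
  have h15 : Nat.card G = 60 ∨ Nat.card G = 360 := by
    generalize Nat.card F = q at *
    interval_cases q <;> omega
  refine h15.imp (fun c => J1.alt5_of_card c (not_solv hna)) fun c =>
    nonempty_equiv_alternating_of_normalCore (H := H.map e.symm.toMonoidHom) ?_ (by norm_num)
      (by rw [h13] at h14; omega) (by rw [c]; rfl)
  refine (hS.eq_bot_or_eq_top_of_normal _ inferInstance).resolve_right fun e' => ?_
  rw [top_le_iff.1 (e'.ge.trans (normalCore_le _)), card_top] at h13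
  omega

theorem cit (hG : Cit.CIT G) :
    Nonempty (G ≃* alternatingGroup (Fin 5)) ∨ Nonempty (G ≃* alternatingGroup (Fin 6)) := by
  rcases hG.structure (not_solv hna) with ⟨X, _, f, hf, hk, K, t, hZ⟩ | ⟨h0, P, L, q, hA⟩
  · have := Finite.of_surjective f hf
    have h1 : f.ker = ⊥ := (hS.eq_bot_or_eq_top_of_normal _ inferInstance).resolve_right
      fun e => hna ⟨⟨fun a b => Cit.comm_of_sq hk (e ▸ mem_top a) (e ▸ mem_top b)⟩⟩
    have e := MulEquiv.ofBijective f ⟨(MonoidHom.ker_eq_bot_iff f).1 h1, hf⟩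
    rcases hZ.zt with ⟨n, -, -, -, -, -, ⟨e'⟩⟩ | ⟨-, -, -, F, _, _, m, h4, -, h6, -⟩
    · exact psl h hna (e.trans e')
    · exact (not_sz (fun x => e.symm.orderOf_eq x ▸ h _) h4 h6).elim
  rcases hA.l.two_le.eq_or_lt with rfl | hq
  · obtain ⟨N, hN, h1, F, _, _, ⟨e⟩, -⟩ := hA.two hG h0
    obtain rfl : N = ⊤ := (hS.eq_bot_or_eq_top_of_normal _ hN).resolve_left
      ((nontrivial_iff_ne_bot N).1 h1.toNontrivial)
    exact psl h hna (topEquiv.symm.trans e)
  have hE : Eppo G := fun g hg => by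
    have h1 := h g
    have h2 : orderOf g ≠ 1 := mt orderOf_eq_one_iff.1 hg
    have h3 := orderOf_pos g
    have h4 : orderOf g ≠ 6 := fun e => by
      have h5 : ∀ k, g ^ k = 1 ↔ 6 ∣ k := fun k => by rw [← e, orderOf_dvd_iff_pow_eq_one]
      refine absurd ((h5 2).1 (hG (g ^ 3) _ (by rw [← pow_add, h5]) (mt (h5 3).1 (by decide))
        (by rw [← pow_add, ← pow_add]) (Cit.odd_of_cube (by rw [← pow_mul, h5])))) (by decide)
    generalize orderOf g = k at *
    interval_cases k
    · exact absurd rfl h2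
    · exact Nat.prime_two.isPrimePow
    · exact Nat.prime_three.isPrimePow
    · exact Nat.prime_two.isPrimePow.pow (k := 2) two_ne_zero
    · exact Nat.prime_five.isPrimePow
    · exact absurd rfl h4
  have := (Cit.Big.iso ⟨hA, hG, hq, hA.syl_top hG h0 hq⟩ h0 hE).1
  exact absurd (by omega) (not_prime_dvd h (r := 7) (by norm_num) le_rfl)

theorem dih (hG : GD.Dih G) :
    Nonempty (G ≃* alternatingGroup (Fin 5)) ∨ Nonempty (G ≃* alternatingGroup (Fin 6)) := by
  rcases GD.main G hS hna hG with ⟨F, _, _, -, -, ⟨e⟩⟩ | h1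
  · exact psl h hna e
  · have := card_top (G := G) ▸ h1.card
    exact absurd (by omega) (not_prime_dvd h (r := 7) (by norm_num) le_rfl)

theorem se {H : Subgroup G} (hH : IsStronglyEmbedded H) :
    Nonempty (G ≃* alternatingGroup (Fin 5)) ∨ Nonempty (G ≃* alternatingGroup (Fin 6)) := by
  obtain ⟨Q, t, R, h2⟩ := SEB.bender hH ((hS.eq_bot_or_eq_top_of_normal _
    inferInstance).resolve_right fun e => hH.1 (top_le_iff.1 (e ▸ normalCore_le _)))
    (AbTI.rk2_of_simple (not_solv hna))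
  rcases (R.simple_trichotomy h2).2 with ⟨n, -, -, -, -, -, ⟨e⟩⟩ |
    ⟨-, -, F, _, _, m, h4, -, h6, -⟩ | ⟨-, h3, -⟩
  · exact psl h hna e
  · exact (not_sz h h4 h6).elim
  obtain ⟨n, h4, h5⟩ := R.exists_card_Q0 h2
  obtain ⟨q, hq⟩ : ∃ q, 2 ^ n = 2 * q + 2 := ⟨2 ^ (n - 1) - 1, by
    have := Nat.one_le_two_pow (n := n - 1)
    rw [show n = n - 1 + 1 by omega, pow_succ, Nat.add_sub_cancel]
    omega⟩
  have h6 : 2 ^ 2 ≤ 2 ^ n := Nat.pow_le_pow_right two_pos h4
  have h7 : 4 * (q * q) + 6 * q + 3 ∣ Nat.card G := by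
    rw [R.card_G, h3, h5, hq]
    exact Dvd.dvd.mul_left ⟨2 * q + 3, by ring⟩ _
  have h8 : ∀ m r, q % m = r → q * q % m = r * r % m := fun m r e => by rw [Nat.mul_mod, e]
  have := le_three h h7 (by omega) (by
    have := h8 5 _ rfl
    have : q % 5 < 5 := Nat.mod_lt _ (by norm_num)
    interval_cases e : q % 5 <;> omega) (by
    have := h8 9 _ rfl
    have : q % 9 < 9 := Nat.mod_lt _ (by norm_num)
    interval_cases e : q % 9 <;> omega)
  omega

theorem ab (hG : H1.AbTwo G) :
    Nonempty (G ≃* alternatingGroup (Fin 5)) ∨ Nonempty (G ≃* alternatingGroup (Fin 6)) := by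
  rcases Wal.walter G hna hG with ⟨n, -, ⟨e⟩⟩ | ⟨F, _, _, -, -, ⟨e⟩⟩ | ⟨t, L, q, h1⟩
  · refine psl h hna (MulEquiv.ofBijective ((piP _).comp e.toMonoidHom)
      ⟨(MonoidHom.ker_eq_bot_iff _).1 ((hS.eq_bot_or_eq_top_of_normal _
        inferInstance).resolve_right fun e' => hna ⟨⟨fun a b => e.injective ?_⟩⟩),
        piP_surj.comp e.surjective⟩)
    rw [map_mul, map_mul]
    exact mem_center_iff.1 (piP_eq_one.1 (e'.ge (mem_top b))) _
  · exact psl h hna e
  obtain ⟨F, _, _, h2, ⟨e⟩⟩ := h1.iso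
  obtain ⟨a, ha⟩ := IsCyclic.exists_ofOrder_eq_natCard (α := Fˣ)
  have h3 := SL2Simple.PSL_commutator_eq_top (F := F) ⟨a, a.ne_zero, fun e => by
    have := orderOf_le_of_pow_eq_one (x := a) two_pos (Units.ext e)
    rw [ha, Nat.card_units, Nat.card_eq_fintype_card, h2] at this
    have := h1.five_le
    omega⟩
  have := Fact.mk Nat.prime_five
  obtain ⟨y, hy⟩ := exists_prime_orderOf_dvd_card' 5 (five_dvd (G := L) (O6.subgroup h L) fun hs =>
    have := Group.isSolvable_of_surjective (f := e.toMonoidHom) e.surjective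
    (Group.IsSolvable.commutator_lt_top_of_nontrivial _).ne h3)
  have := O6.mul_le h (h1.comm y y.2) (by rw [orderOf_coe, hy, h1.ord]; norm_num)
  rw [orderOf_coe, hy, h1.ord] at this
  omega

end CfsgLib.E6.Id

namespace CfsgLib.E6

open Subgroup Cfsg CfsgLib.FT.BGN

universe u

theorem ident {G : Type u} [Group G] [Finite G] (hs : IsSimpleGroup G)
    (hna : ¬ IsMulCommutative G) (h6 : O6 G) (h : End G) : K56 G := by
  rcases h with ⟨M, h⟩ | h | ⟨a, b, ha, hb, h⟩ | ⟨S, h, h1⟩
  · exact Id.se h6 hna h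
  · exact Id.cit h6 hna h
  · have h1 : a * (a * b) * a⁻¹ = (a * b)⁻¹ := by
      rw [← mul_assoc, ha, one_mul, mul_inv_rev, inv_eq_of_mul_eq_one_right hb]
    have h2 : zpowers a ≤ 𝐍(zpowers (a * b)) := zpowers_le.2 (mem_normalizer_of_conj_mem
      fun y hy => GW.inverts_zpowers h1 y hy ▸ inv_mem hy)
    refine Id.dih h6 hna (Hom.dih_of_frame h (x := a * b) (y := a) (fun s hs => ?_) ha h1)
    have h3 : zpowers a ⊔ zpowers b ≤ zpowers (a * b) ⊔ zpowers a := sup_le le_sup_right
      (zpowers_le.2 (by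
        have := mul_mem (mem_sup_right (mem_zpowers a) : a ∈ zpowers (a * b) ⊔ zpowers a)
          (mem_sup_left (mem_zpowers (a * b)))
        rwa [← mul_assoc, ha, one_mul] at this))
    obtain ⟨n, hn, c, hc, rfl⟩ := (mem_sup_iff_of_le_normalizer' h2).1 (h3 hs)
    rcases Cit.eq_of_mem_zpowers ha hc with rfl | rfl
    · exact Or.inl (by rwa [mul_one])
    · exact Or.inr (by rwa [mul_inv_cancel_right])
  · refine Id.ab h6 hna fun Q hQ => ?_
    have := Fact.mk Nat.prime_two
    obtain ⟨g, -, hg⟩ := h.exists_conj_le hQ le_top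
    exact H5.isMulCommutative_iff'.2 fun x hx y hy => (MulAut.conj g).injective (by
      rw [map_mul, map_mul]
      exact H5.isMulCommutative_iff'.1 h1 _ (hg (mem_map_of_mem _ hx)) _ (hg (mem_map_of_mem _ hy)))

end CfsgLib.E6
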