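import Cfsg.Agent.Lib.E6.Glob
import Cfsg.Agent.Lib.E6.Rk
import Cfsg.Agent.Lib.E6.Id
import Cfsg.Agent.Lib.E6.Solv

/-!
# Simple groups with element orders at most six
-/

set_option autoImplicit false

namespace CfsgLib.E6

universe u

theorem ak (n : ℕ) : AK.{u} n := by
  induction n using Nat.strong_induction_on with
  | _ n ih =>
  intro X _ _ hs hna h6 hn
  exact ident hs hna h6 ((rk hs hna h6).elim id (Ctx.glob ⟨hs, hna, h6, ih _ hn⟩))

theorem alt6_pow : ∀ σ : Equiv.Perm (Fin 6), Equiv.Perm.sign σ = 1 →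
    σ ^ 3 = 1 ∨ σ ^ 4 = 1 ∨ σ ^ 5 = 1 := by
  decide +kernel

theorem alt6_orderOf (σ : alternatingGroup (Fin 6)) : orderOf σ ≠ 6 := fun h => by
  rw [← Subgroup.orderOf_coe] at h
  rcases alt6_pow σ σ.2 with e | e | e <;>
    exact absurd (h ▸ orderOf_dvd_of_pow_eq_one e) (by decide)

end CfsgLib.E6
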